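import Cfsg.Agent.H839.EP.AltTen
import Cfsg.Agent.S1000

/-!
# `H839.EP.Br` is S1000 (helper786)
-/

set_option autoImplicit false

namespace Cfsg.Agent.H786.EX

/-- the theorem of Brauer and Wales -/
theorem br : Cfsg.Agent.H839.EP.Br := fun {_} _ _ _ hG p a b hp h => Cfsg.Agent.S1000.result hG p a b hp h

end Cfsg.Agent.H786.EX
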